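import Mathlib
import Cfsg.Agent.S0243
import Cfsg.Agent.S2475

/-!
# The prime graph of `PSL(2, u)`, `u` odd (helper945)
-/

set_option autoImplicit false

namespace Cfsg.Agent.H945.PslTwoOdd

open Matrix

variable {E : Type*} [Field E] [Fintype E]

theorem gcd_two {u : ℕ} (hu : Odd u) : Nat.gcd 2 (u - 1) = 2 := by
  obtain ⟨k, rfl⟩ := hu
  rw [Nat.add_sub_cancel]
  exact Nat.gcd_eq_left ⟨k, rfl⟩

theorem card_psl (hE : Odd (Fintype.card E)) :
    2 * Nat.card (ProjectiveSpecialLinearGroup (Fin 2) E) = Fintype.card E * (Fintype.card E * Fintype.card E - 1) := by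
  have h1 := Cfsg.Agent.S0243.result (F := E) rfl 2 le_rfl
  rw [gcd_two hE, Fin.prod_univ_two] at h1
  have hu : 2 ≤ Fintype.card E := Fintype.one_lt_card
  generalize Fintype.card E = u at *
  generalize Nat.card (ProjectiveSpecialLinearGroup (Fin 2) E) = c at *
  obtain ⟨v, rfl⟩ : ∃ v, u = v + 1 := ⟨u - 1, by omega⟩
  have hv : 0 < v := by omega
  apply Nat.eq_of_mul_eq_mul_left hv
  simp only [Fin.val_zero, Fin.val_one, pow_zero, pow_one, Nat.add_sub_cancel] at h1
  have h2 : (v + 1) ^ 2 - (v + 1) = (v + 1) * v := by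
    have : (v + 1) ^ 2 = (v + 1) * v + (v + 1) := by ring
    omega
  have h3 : (v + 1) * (v + 1) - 1 = v * (v + 2) := by
    have : (v + 1) * (v + 1) = v * (v + 2) + 1 := by ring
    omega
  have h4 : (v + 1) ^ 2 - 1 = v * (v + 2) := by
    have : (v + 1) ^ 2 = v * (v + 2) + 1 := by ring
    omega
  rw [h2, h4] at h1
  rw [h3]
  nlinarith [h1]

theorem orders (hE : Odd (Fintype.card E)) (h4 : 4 ≤ Fintype.card E) {m : ℕ}
    (hm : m ∣ (Fintype.card E - 1) / 2 ∨ m ∣ (Fintype.card E + 1) / 2) :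
    ∃ x : ProjectiveSpecialLinearGroup (Fin 2) E, orderOf x = m := by
  obtain ⟨p, hp⟩ := CharP.exists E
  obtain ⟨k, hk, -⟩ := FiniteField.card E p
  have : Fact p.Prime := ⟨hk⟩
  have h1 : m ∈ Set.range (orderOf : ProjectiveSpecialLinearGroup (Fin 2) E → ℕ) := by
    rw [S2475.result (F := E) p h4, gcd_two hE]
    exact Or.inr hm
  exact h1

/-- two odd primes dividing `u - 1` are adjacent -/
theorem adj (hE : Odd (Fintype.card E)) (h4 : 4 ≤ Fintype.card E) {p q : ℕ} (hp : p.Prime) (hq : q.Prime) (hp2 : p ≠ 2)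
    (hq2 : q ≠ 2) (hpq : p ≠ q) (h : (p ∣ Fintype.card E - 1 ∧ q ∣ Fintype.card E - 1) ∨
      (p ∣ Fintype.card E + 1 ∧ q ∣ Fintype.card E + 1)) :
    ∃ x : ProjectiveSpecialLinearGroup (Fin 2) E, orderOf x = p * q := by
  have key : ∀ n : ℕ, 2 ∣ n → p ∣ n → q ∣ n → p * q ∣ n / 2 := by
    rintro n ⟨m, rfl⟩ h1 h2
    rw [Nat.mul_div_cancel_left m (by norm_num)]
    refine Nat.Coprime.mul_dvd_of_dvd_of_dvd ((Nat.coprime_primes hp hq).2 hpq) ?_ ?_
    · exact (hp.dvd_mul.1 h1).resolve_left fun h => hp2 ((Nat.prime_dvd_prime_iff_eq hp Nat.prime_two).1 h)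
    · exact (hq.dvd_mul.1 h2).resolve_left fun h => hq2 ((Nat.prime_dvd_prime_iff_eq hq Nat.prime_two).1 h)
  apply orders hE h4
  have he : 2 ∣ Fintype.card E - 1 := by
    obtain ⟨k, hk⟩ := hE
    exact ⟨k, by omega⟩
  have he' : 2 ∣ Fintype.card E + 1 := by
    obtain ⟨k, hk⟩ := hE
    exact ⟨k + 1, by omega⟩
  rcases h with ⟨h1, h2⟩ | ⟨h1, h2⟩
  · exact Or.inl (key _ he h1 h2)
  · exact Or.inr (key _ he' h1 h2)

theorem cases_of_dvd (hE : Odd (Fintype.card E)) {p : ℕ} (hp : p.Prime)
    (h : p ∣ Nat.card (ProjectiveSpecialLinearGroup (Fin 2) E)) :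
    p ∣ Fintype.card E ∨ p ∣ Fintype.card E - 1 ∨ p ∣ Fintype.card E + 1 := by
  have h1 : p ∣ Fintype.card E * (Fintype.card E * Fintype.card E - 1) := by
    rw [← card_psl hE]
    exact h.mul_left _
  rcases hp.dvd_mul.1 h1 with h2 | h2
  · exact Or.inl h2
  · right
    have h3 : Fintype.card E * Fintype.card E - 1 = (Fintype.card E - 1) * (Fintype.card E + 1) := by
      have := Fintype.card_pos (α := E)
      obtain ⟨v, hv⟩ : ∃ v, Fintype.card E = v + 1 := ⟨Fintype.card E - 1, by omega⟩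
      rw [hv, Nat.add_sub_cancel]
      have : (v + 1) * (v + 1) = v * (v + 1 + 1) + 1 := by ring
      omega
    rw [h3] at h2
    exact hp.dvd_mul.1 h2

/-- Cocliques of odd primes have at most three elements. -/
theorem card_le_three (hE : Odd (Fintype.card E)) (h4 : 4 ≤ Fintype.card E) {P : Finset ℕ}
    (h1 : ∀ p ∈ P, p.Prime ∧ p ≠ 2 ∧ p ∣ Nat.card (ProjectiveSpecialLinearGroup (Fin 2) E))
    (h2 : ∀ p ∈ P, ∀ q ∈ P, p ≠ q → ¬ ∃ x : ProjectiveSpecialLinearGroup (Fin 2) E, orderOf x = p * q) :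
    P.card ≤ 3 := by
  classical
  let c : ℕ → Fin 3 := fun p => if p ∣ Fintype.card E then 0 else if p ∣ Fintype.card E - 1 then 1 else 2
  have hinj : Set.InjOn c P := by
    intro p hp q hq hpq
    by_contra hne
    obtain ⟨a1, a2, a3⟩ := h1 p hp
    obtain ⟨b1, b2, b3⟩ := h1 q hq
    apply h2 p hp q hq hne
    obtain ⟨r, hr⟩ := CharP.exists E
    obtain ⟨k, hk, hc⟩ := FiniteField.card E r
    have hdiv : ∀ t : ℕ, t.Prime → t ∣ Fintype.card E → t = r := by
      intro t ht h
      rw [hc] at h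
      exact (Nat.prime_dvd_prime_iff_eq ht hk).1 (ht.dvd_of_dvd_pow h)
    rcases cases_of_dvd hE a1 a3 with hpu | hpu
    · have hcp : c p = 0 := if_pos hpu
      by_cases hqu : q ∣ Fintype.card E
      · exact absurd ((hdiv p a1 hpu).trans (hdiv q b1 hqu).symm) hne
      · exfalso
        rw [hcp] at hpq
        simp only [c, if_neg hqu] at hpq
        split_ifs at hpq <;> exact absurd hpq (by decide)
    · by_cases hp0 : p ∣ Fintype.card E
      · have hcp : c p = 0 := if_pos hp0
        by_cases hqu : q ∣ Fintype.card E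
        · exact absurd ((hdiv p a1 hp0).trans (hdiv q b1 hqu).symm) hne
        · exfalso
          rw [hcp] at hpq
          simp only [c, if_neg hqu] at hpq
          split_ifs at hpq <;> exact absurd hpq (by decide)
      · by_cases hq0 : q ∣ Fintype.card E
        · have hcq : c q = 0 := if_pos hq0
          exfalso
          rw [hcq] at hpq
          simp only [c, if_neg hp0] at hpq
          split_ifs at hpq <;> exact absurd hpq (by decide)
        · simp only [c, if_neg hp0, if_neg hq0] at hpq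
          by_cases hp1 : p ∣ Fintype.card E - 1
          · by_cases hq1 : q ∣ Fintype.card E - 1
            · exact adj hE h4 a1 b1 a2 b2 hne (Or.inl ⟨hp1, hq1⟩)
            · rw [if_pos hp1, if_neg hq1] at hpq
              exact absurd hpq (by decide)
          · by_cases hq1 : q ∣ Fintype.card E - 1
            · rw [if_neg hp1, if_pos hq1] at hpq
              exact absurd hpq (by decide)
            · have hp2 : p ∣ Fintype.card E + 1 := hpu.resolve_left hp1
              have hq2 : q ∣ Fintype.card E + 1 :=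
                ((cases_of_dvd hE b1 b3).resolve_left hq0).resolve_left hq1
              exact adj hE h4 a1 b1 a2 b2 hne (Or.inr ⟨hp2, hq2⟩)
  have h3 := Finset.card_le_card_of_injOn (s := P) (t := (Finset.univ : Finset (Fin 3))) c
    (fun _ _ => Finset.mem_univ _) hinj
  simpa using h3

end Cfsg.Agent.H945.PslTwoOdd
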